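import Cfsg.Agent.Lib.Leech.SubData
import Cfsg.Agent.Lib.Leech.RankData

/-!
Kernel checks for the suborbits on 2025 points.
-/

set_option autoImplicit false
set_option maxRecDepth 100000

namespace Cfsg.Agent.Lib.Leech

open Cfsg Golay

theorem mc_block_ok : orbitOK RankOrb.mcGens SubOrb.mcBlockTree SubOrb.mcBlock 2025 = true := by decide +kernel

theorem mc_sub0_ok : orbitOK SubOrb.mcBlockGens SubOrb.mcSub0Tree SubOrb.mcSub0Start 330 = true := by decide +kernel

theorem mc_sub1_ok : orbitOK SubOrb.mcBlockGens SubOrb.mcSub1Tree SubOrb.mcSub1Start 462 = true := by decide +kernel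

theorem mc_sub2_ok : orbitOK SubOrb.mcBlockGens SubOrb.mcSub2Tree SubOrb.mcSub2Start 1232 = true := by decide +kernel

theorem mc_sub_fix : (SubOrb.mcBlockGens.all fun w => wOk w && (wRun w RankOrb.five == RankOrb.five) && (wRun w RankOrb.fourFour == RankOrb.fourFour) && (wRun w SubOrb.mcBlock == SubOrb.mcBlock)) = true := by decide +kernel

end Cfsg.Agent.Lib.Leech
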