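import Cfsg.Agent.Lib.Leech.McCentChecks
import Cfsg.Agent.Lib.Leech.SubChecksMC
import Cfsg.Agent.Lib.Leech.PairGroups
import Cfsg.Agent.Lib.Golay.OuterGroups

/-! The centralizer of an involution of the McLaughlin group. -/

set_option autoImplicit false
set_option maxRecDepth 100000
set_option maxHeartbeats 400000

namespace Cfsg.Agent.Lib.Leech.McCent

open Cfsg Golay Cfsg.Agent.Lib.Fusion.Mathieu
open scoped Pointwise

theorem orbit_listed {gs : List (List Op)} {T : List (ℕ × ℕ)} {start : ℕ} {n : ℕ}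
    (h : orbitOK gs T start n = true) (K : Subgroup ↥Co0) (hK : ∀ g ∈ gs, wCo g ∈ K) {x : ↥leechLattice}
    (hx : (x : GolayPt → ℤ) = toVec start) (hx64 : sqNorm (x : GolayPt → ℤ) ≤ 64)
    (S : Set ↥leechLattice) (hn : S.ncard = n) (hS : ∀ k ∈ K, k • x ∈ S) :
    ∀ y ∈ S, ∃ a ∈ orbitVecs gs T start, (y : GolayPt → ℤ) = toVec a := by
  simp only [orbitOK, Bool.and_eq_true, List.all_eq_true, Nat.blt_eq, beq_iff_eq] at h
  obtain ⟨⟨⟨hok, hT⟩, hlen⟩, hd⟩ := h
  obtain ⟨hnd, -⟩ := distinctFrom_spec hd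
  have hall : ∀ a ∈ orbitVecs gs T start, ∃ k ∈ K, ((k • x : ↥leechLattice) : GolayPt → ℤ) = toVec a := by
    intro a ha
    rcases List.mem_cons.1 ha with rfl | ha
    · exact ⟨1, Subgroup.one_mem K, by rw [one_smul]; exact hx⟩
    · exact walk_reach K hok hK x hx64 T [start] hT (fun c hc => by rw [List.mem_singleton.1 hc]; exact ⟨1, Subgroup.one_mem K, by rw [one_smul]; exact hx⟩) a ha
  choose f hf1 hf2 using hall
  let im : List ↥leechLattice := (orbitVecs gs T start).attach.map fun a => f a.1 a.2 • x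
  have hinj : im.Nodup := by
    refine List.Nodup.map_on (fun a _ b _ e => Subtype.ext ?_) (List.nodup_attach.2 hnd.of_map)
    refine List.inj_on_of_nodup_map hnd a.2 b.2 (key_congr ?_)
    rw [← hf2 a.1 a.2, ← hf2 b.1 b.2, e]
  have hsub : (↑im.toFinset : Set ↥leechLattice) ⊆ S := by
    intro z hz
    simp only [List.coe_toFinset, Set.mem_ofPred_eq, im, List.mem_map] at hz
    obtain ⟨a, -, rfl⟩ := hz
    exact hS _ (hf1 _ _)
  have hnpos : 0 < n := by rw [← hlen, orbitVecs, List.length_cons]; omega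
  have heq : (↑im.toFinset : Set ↥leechLattice) = S := by
    refine Set.eq_of_subset_of_ncard_le hsub ?_ (Set.finite_of_ncard_pos (hn ▸ hnpos))
    rw [hn, Set.ncard_coe_finset, List.toFinset_card_of_nodup hinj]
    simp [im, hlen]
  intro y hy
  rw [← heq] at hy
  simp only [List.coe_toFinset, Set.mem_ofPred_eq, im, List.mem_map] at hy
  obtain ⟨a, -, rfl⟩ := hy
  exact ⟨a.1, a.2, hf2 _ _⟩

theorem wCo_append (u v : List Op) : wCo (u ++ v) = wCo u * wCo v := by simp [wCo]

theorem vecs : (∀ p, (vFive : GolayPt → ℤ) p = toVec RankOrb.five p) ∧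
    (∀ p, (fourFour : GolayPt → ℤ) p = toVec RankOrb.fourFour p) ∧
    sqNorm (fourFour : GolayPt → ℤ) = 32 := by
  refine ⟨?_, ?_, ?_⟩ <;> decide +kernel

theorem pair_word {w : List Op} (h1 : wOk w = true) (h5 : (wRun w RankOrb.five == RankOrb.five) = true)
    (h4 : (wRun w RankOrb.fourFour == RankOrb.fourFour) = true) : wCo w ∈ pairStab fourFour :=
  ⟨wCo_fix h1 (funext vecs.1) (by rw [vFive_shape.1]; norm_num) h5,
    wCo_fix h1 (funext vecs.2.1) (by rw [vecs.2.2]; norm_num) h4⟩

theorem eCode_spec : ∀ i p : GolayPt, (e8 i : GolayPt → ℤ) p = toVec (eCode (ix i)) p := by decide +kernel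

theorem wCo_commute {u v : List Op} (h : (wOk (u ++ v) && wOk (v ++ u) &&
    idx.all fun i => wRun (u ++ v) (eCode i) == wRun (v ++ u) (eCode i)) = true) :
    wCo u * wCo v = wCo v * wCo u := by
  simp only [Bool.and_eq_true, List.all_eq_true, beq_iff_eq] at h
  rw [← wCo_append, ← wCo_append]
  refine co_ext fun i => Subtype.ext ?_
  rw [wRun_spec h.1.1 (funext (eCode_spec i)) (sqNorm_e8 i).le,
    wRun_spec h.1.2 (funext (eCode_spec i)) (sqNorm_e8 i).le, h.2 _ (mem_idx.2 (ix_lt i))]

/-! ### The permutations -/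

theorem gM22_st2 : gM22 = st2 none (pt 0) := by rw [gM22_eq]; congr

theorem inStab_st2 {p : ℕ} (h : inStab [] twoFix p = true) : toPerm p ∈ st2 none (pt 0) :=
  gM22_st2 ▸ (inStab_spec h).1

theorem inStab_inM24 {p : ℕ} (h : inStab [] twoFix p = true) : inM24 p = true := by
  simp only [inStab, Bool.and_eq_true] at h
  exact h.1.1

theorem wCo_perm {p : ℕ} (h : inM24 p = true) (σ : ↥(st2 none (pt 0)))
    (hσ : (σ : Equiv.Perm GolayPt) = toPerm p) : wCo [.perm p] = (permTwo σ)⁻¹ := by
  rw [← map_inv]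
  simp only [wCo, List.map_cons, List.map_nil, List.prod_cons, List.prod_nil, mul_one, Op.co, dif_pos h]
  have key : ∀ (τ τ' : Equiv.Perm GolayPt) (a : τ ∈ M24) (b : τ' ∈ M24), τ = τ' →
      permCo τ a = permCo τ' b := by rintro τ τ' a b rfl; rfl
  exact key _ _ _ (inv_mem
      (Subgroup.inclusion (inf_le_left.trans inf_le_left : st2 none (pt 0) ≤ M24) σ⁻¹).2)
    (by show toPerm p = ((σ : Equiv.Perm GolayPt)⁻¹)⁻¹; rw [inv_inv, hσ])

theorem root_facts : inStab [] twoFix rootT = true ∧ toPerm rootT * toPerm rootT = toPerm o22B := by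
  have h := root_ok
  simp only [Bool.and_eq_true] at h
  have hv := (inStab_spec h.1).2
  refine ⟨h.1, ?_⟩
  rw [← toPerm_comp hv hv]
  exact (eqv_iff (valid_comp hv hv) (by decide +kernel)).1 h.2

/-- The involution among the permutations. -/
noncomputable def tPerm : ↥(st2 none (pt 0)) :=
  ⟨toPerm o22B, root_facts.2 ▸ mul_mem (inStab_st2 root_facts.1) (inStab_st2 root_facts.1)⟩

theorem tPerm_order : orderOf tPerm = 2 := by
  haveI : Fact (Nat.Prime 2) := ⟨Nat.prime_two⟩
  have hv : valid o22B = true := by decide +kernel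
  rw [← Subgroup.orderOf_coe]
  refine orderOf_eq_prime ?_ ?_
  · show toPerm o22B ^ 2 = 1
    rw [pow_two, ← toPerm_comp hv hv, ← toPerm_id]
    exact (eqv_iff (valid_comp hv hv) valid_idCode).1 (by decide +kernel)
  · show toPerm o22B ≠ 1
    rw [← toPerm_id]
    exact fun e => absurd ((eqv_iff hv valid_idCode).2 e) (by decide +kernel)

/-- The involution. -/
noncomputable def tCo : ↥Co0 := permTwo tPerm

theorem tCo_sq : tCo * tCo = 1 := by
  rw [tCo, ← map_mul, ← pow_two, ← tPerm_order, pow_orderOf_eq_one, map_one]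

theorem wT_eq : wCo wT = tCo := by
  rw [wT, wCo_perm (by decide +kernel) tPerm rfl]
  exact inv_eq_of_mul_eq_one_left tCo_sq

/-- The centralizer. -/
noncomputable def cent : Subgroup ↥Co0 := pairStab fourFour ⊓ Subgroup.centralizer {tCo}

theorem mem_cent {g : ↥Co0} : g ∈ cent ↔ g ∈ pairStab fourFour ∧ g * tCo = tCo * g := by
  simp [cent, Subgroup.mem_inf, Subgroup.mem_centralizer_singleton_iff, eq_comm]

theorem tCo_mem : tCo ∈ cent := mem_cent.2 ⟨permTwo_mem shapes.2.2.1 _, rfl⟩

theorem word_mem {w : List Op} (h1 : wOk w = true) (h5 : (wRun w RankOrb.five == RankOrb.five) = true)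
    (h4 : (wRun w RankOrb.fourFour == RankOrb.fourFour) = true)
    (hc : (wOk (w ++ wT) && wOk (wT ++ w) &&
      idx.all fun i => wRun (w ++ wT) (eCode i) == wRun (wT ++ w) (eCode i)) = true) :
    wCo w ∈ cent := by
  refine mem_cent.2 ⟨pair_word h1 h5 h4, ?_⟩
  rw [← wT_eq]; exact wCo_commute hc

/-- The group generated. -/
noncomputable def genGroup : Subgroup ↥Co0 := Subgroup.closure {g | ∃ w ∈ cGens, wCo w = g}

theorem gen_mem : ∀ w ∈ cGens, wCo w ∈ genGroup := fun w hw => Subgroup.subset_closure ⟨w, hw, rfl⟩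

theorem genGroup_le : genGroup ≤ cent := by
  refine (Subgroup.closure_le _).2 ?_
  rintro _ ⟨w, hw, rfl⟩
  have h := List.all_eq_true.1 gens_ok w hw
  simp only [Bool.and_eq_true] at h
  exact word_mem h.1.1 h.1.2 h.2 (List.all_eq_true.1 comm_ok w hw)

theorem mono_facts : pcOK twoGens = true ∧ valid threeElt = true ∧
    (∀ p ∈ monoList, inStab [] twoFix p = true ∧ valid p = true ∧ toPerm p * toPerm o22B = toPerm o22B * toPerm p) ∧
    monoList.length = 384 ∧ monoList.Nodup := by
  have h := mono_ok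
  simp only [Bool.and_eq_true, List.all_eq_true, beq_iff_eq] at h
  obtain ⟨⟨⟨⟨h1, h2⟩, h3⟩, h4⟩, h5⟩ := h
  refine ⟨h1, h2, fun p hp => ?_, h4, (distinctFrom_spec h5).1⟩
  have hv := (inStab_spec (h3 p hp).1).2
  have ht : valid o22B = true := by decide +kernel
  refine ⟨(h3 p hp).1, hv, ?_⟩
  rw [← toPerm_comp hv ht, ← toPerm_comp ht hv]
  exact (eqv_iff (valid_comp hv ht) (valid_comp ht hv)).1 (h3 p hp).2

theorem comp_canon {a b c d : ℕ} (ha : valid a = true) (hb : valid b = true) (hc : valid c = true)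
    (hd : valid d = true) (e : toPerm (Fusion.Mathieu.comp a b) = toPerm (Fusion.Mathieu.comp c d)) : Fusion.Mathieu.comp a b = Fusion.Mathieu.comp c d := by
  have h := (eqv_iff (valid_comp ha hb) (valid_comp hc hd)).2 e
  simp only [eqv, List.all_eq_true, beq_iff_eq] at h
  refine congrArg pack (List.map_congr_left fun i hi => ?_)
  have := h i hi
  rwa [Fusion.Mathieu.img_comp ha hb (mem_idx.1 hi), Fusion.Mathieu.img_comp hc hd (mem_idx.1 hi)] at this

theorem centIn_eq (σ : Equiv.Perm GolayPt) :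
    σ ∈ od22.centIn (toPerm o22B) ↔ σ ∈ elems monoList := by
  classical
  obtain ⟨hpc, hc3, hall, hlen, hnd⟩ := mono_facts
  have hsub : elems monoList ⊆ (od22.centIn (toPerm o22B) : Set (Equiv.Perm GolayPt)) := by
    rintro _ ⟨p, hp, rfl⟩
    exact mem_centIn.2 ⟨(inStab_spec (hall p hp).1).1, (hall p hp).2.2⟩
  have hcard : Nat.card (od22.centIn (toPerm o22B)) = 384 := by
    rw [show toPerm o22B = toPerm od22.b from rfl, od22_pre.class_facts.2]
    decide +kernel
  have hshape : ∀ p ∈ monoList, ∃ a b, valid a = true ∧ valid b = true ∧ p = Fusion.Mathieu.comp a b := by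
    intro p hp
    rw [monoList, List.mem_flatMap] at hp
    obtain ⟨a, ha, hab⟩ := hp
    obtain ⟨b, hb, rfl⟩ := List.mem_map.1 hab
    have hgv : ∀ g ∈ twoGens, valid g = true := valid_of_pcOK twoGens hpc
    have hbv : valid b = true := valid_span twoGens hgv b hb
    refine ⟨a, b, ?_, hbv, rfl⟩
    simp only [List.mem_cons, List.not_mem_nil, or_false] at ha
    rcases ha with rfl | rfl | rfl
    · exact valid_idCode
    · exact hc3
    · exact valid_comp hc3 hc3
  have he : elems monoList = ((monoList.map toPerm).toFinset : Set (Equiv.Perm GolayPt)) := by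
    ext τ; simp [elems]
  have heq : elems monoList = (od22.centIn (toPerm o22B) : Set (Equiv.Perm GolayPt)) := by
    refine Set.eq_of_subset_of_ncard_le hsub ?_ (Set.toFinite _)
    show Nat.card (od22.centIn (toPerm o22B)) ≤ _
    rw [hcard, he, Set.ncard_coe_finset, List.toFinset_card_of_nodup, List.length_map, hlen]
    refine List.Nodup.map_on (fun p hp q hq e => ?_) hnd
    obtain ⟨a, b, ha, hb, hpe⟩ := hshape p hp
    obtain ⟨c, d, hc, hd, hqe⟩ := hshape q hq
    rw [hpe, hqe] at e
    rw [hpe, hqe]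
    exact comp_canon ha hb hc hd e
  rw [heq]
  rfl

theorem gens_inStab : ((twoGens ++ [threeElt]).all (inStab [] twoFix)) = true := by decide +kernel

theorem monoList_gen {p : ℕ} (hp : p ∈ monoList) :
    ∃ σ : ↥(st2 none (pt 0)), (σ : Equiv.Perm GolayPt) = toPerm p ∧ permTwo σ ∈ genGroup := by
  obtain ⟨hpc, hc3, hall, -, -⟩ := mono_facts
  let M : Subgroup (Equiv.Perm GolayPt) := (genGroup.comap permTwo).map (st2 none (pt 0)).subtype
  have hgen : ∀ a ∈ twoGens ++ [threeElt], toPerm a ∈ M := by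
    intro a ha
    have hw : [Op.perm a] ∈ cGens := List.mem_append_left _ (List.mem_map.2 ⟨a, ha, rfl⟩)
    have h1 := List.all_eq_true.1 gens_ok _ hw
    simp only [Bool.and_eq_true, wOk, List.all_cons, List.all_nil, Bool.and_true] at h1
    have h2 : inStab [] twoFix a = true := List.all_eq_true.1 gens_inStab a ha
    refine ⟨⟨toPerm a, inStab_st2 h2⟩, ?_, rfl⟩
    show permTwo _ ∈ genGroup
    have h3 := gen_mem _ hw
    rw [wCo_perm h1.1.1 ⟨toPerm a, inStab_st2 h2⟩ rfl] at h3
    exact inv_mem_iff.1 h3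
  have h3 : toPerm threeElt ∈ M := hgen _ (by simp)
  have hK : grp twoGens ≤ M := by
    refine (Subgroup.closure_le _).2 ?_
    rintro _ ⟨a, ha, rfl⟩
    exact hgen a (by simp [ha])
  rw [monoList, List.mem_flatMap] at hp
  obtain ⟨a, ha, hab⟩ := hp
  obtain ⟨b, hb, rfl⟩ := List.mem_map.1 hab
  have hgv : ∀ g ∈ twoGens, valid g = true := valid_of_pcOK twoGens hpc
  have hvb : valid b = true := valid_span twoGens hgv b hb
  have hbM : toPerm b ∈ M := hK ((grp_spec twoGens hpc).1.ge ⟨b, hb, rfl⟩)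
  have haM : toPerm a ∈ M ∧ valid a = true := by
    simp only [List.mem_cons, List.not_mem_nil, or_false] at ha
    rcases ha with rfl | rfl | rfl
    · exact ⟨toPerm_id ▸ M.one_mem, valid_idCode⟩
    · exact ⟨h3, hc3⟩
    · exact ⟨toPerm_comp hc3 hc3 ▸ M.mul_mem h3 h3, valid_comp hc3 hc3⟩
  obtain ⟨σ, hσ, hσe⟩ : toPerm (Fusion.Mathieu.comp a b) ∈ M := toPerm_comp haM.2 hvb ▸ M.mul_mem haM.1 hbM
  exact ⟨σ, hσe, hσ⟩

/-! ### The fixed points -/

/-- The fixed points, as lattice vectors. -/
def pt105 (i : Fin 105) : ↥leechLattice :=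
  ⟨toVec (pts.getD i 0), mem_of_check (by revert i; decide +kernel)⟩

theorem pt105_norm : ∀ i : Fin 105, sqNorm (pt105 i : GolayPt → ℤ) = 32 := by decide +kernel

theorem pts_facts : pts.length = 105 ∧ (pts.map key).Nodup := by
  have h := orbit_ok
  simp only [orbitOK, Bool.and_eq_true, beq_iff_eq] at h
  rw [beq_iff_eq.1 orbit_eq] at h
  exact ⟨h.1.2, (distinctFrom_spec h.2).1⟩

theorem pt105_injective : Function.Injective pt105 := by
  intro i j e
  obtain ⟨hl, hnd⟩ := pts_facts
  have h1 : key (pts.getD i 0) = key (pts.getD j 0) := key_congr (congrArg Subtype.val e)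
  rw [List.getD_eq_getElem _ _ (i.2.trans_eq hl.symm),
    List.getD_eq_getElem _ _ (j.2.trans_eq hl.symm)] at h1
  exact Fin.ext ((hnd.getElem_inj_iff (i := i.val) (j := j.val) (hi := by simp [hl]) (hj := by simp [hl])).1
    (by rw [List.getElem_map, List.getElem_map]; exact h1))

theorem base_facts : ∀ p, (pt105 0 : GolayPt → ℤ) p + (fourFour : GolayPt → ℤ) p = (e8 none : GolayPt → ℤ) p := by
  decide +kernel

/-- A word moving the base point to the base of the tree on 2025 points. -/
def toBlock : List Op := [.perm 972852829426176772889562282409315488, .perm 983999421392256391462397223812637184, .perm 967735972602132343148942353369487976, .perm 967735972602132343148942353369487976, .sext, .flip 8241104, .perm 552008174849838304979606382336911475, .flip 8241104, .sext, .perm 262498328562369344188227987756944561, .perm 958241225628886311854360080399355021, .perm 958241225628886311854360080399355021, .perm 984639527609615198651048301965921954, .perm 972852829426176772889562282409315488,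 .perm 972852829426176772889562282409315488, .perm 972852829426176772889562282409315488, .perm 967735972602132343148942353369487976, .perm 967735972602132343148942353369487976, .sext, .flip 8241104, .perm 552008174849838304979606382336911475, .flip 8241104, .sext, .perm 262498328562369344188227987756944561, .perm 958241225628886311854360080399355021, .perm 958241225628886311854360080399355021, .perm 984639527609615198651048301965921954, .perm 983999421392256391462397223812637184, .perm 967735972602132343148942353369487976, .perm 967735972602132343148942353369487976, .sext, .flip 8241104, .perm 552008174849838304979606382336911475, .flip 8241104, .sext, .perm 262498328562369344188227987756944561, .perm 958241225628886311854360080399355021, .perm 958241225628886311854360080399355021, .perm 984639527609615198651048301965921954]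

/-- The base of the tree on 2025 points. -/
def blockVec : ↥leechLattice := ⟨toVec SubOrb.mcBlock, mem_of_check (by decide +kernel)⟩

theorem blockVec_norm : sqNorm (blockVec : GolayPt → ℤ) = 32 := by decide +kernel

theorem toBlock_ok : (wOk toBlock && (wRun toBlock RankOrb.five == RankOrb.five) &&
    (wRun toBlock RankOrb.fourFour == RankOrb.fourFour) && (wRun toBlock xCode == SubOrb.mcBlock)) = true := by
  decide +kernel

theorem mcGens_fix : (RankOrb.mcGens.all fun w => wOk w && (wRun w RankOrb.five == RankOrb.five) &&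
    (wRun w RankOrb.fourFour == RankOrb.fourFour)) = true := by decide +kernel

theorem pair_fix_mono {g : ↥Co0} (hg : g ∈ pairStab fourFour) (h : g • pt105 0 = pt105 0) :
    ∃ σ, permTwo σ = g := by
  have he : g • e8 none = e8 none := by
    have e : e8 none = pt105 0 + fourFour := Subtype.ext (funext fun p => (base_facts p).symm)
    rw [e, smul_add', h, MulAction.mem_stabilizer_iff.1 hg.2]
  exact mono_two (Or.inl rfl) hg (mem_stab_cross0.2 (by rw [he]; exact Cong.refl _))

theorem permTwo_base (σ : ↥(st2 none (pt 0))) : permTwo σ • pt105 0 = pt105 0 :=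
  permTwo_fix (a := 4) (b := -4) (c := 0) (by decide +kernel) σ

theorem orbit_card : (MulAction.orbit ↥(pairStab fourFour) (pt105 0)).ncard = 2025 := by
  haveI : Finite ↥Co0 := Nat.finite_of_card_ne_zero (by rw [card_Co0]; norm_num)
  have h := Subgroup.card_mul_index (MulAction.stabilizer ↥(pairStab fourFour) (pt105 0))
  rw [MulAction.index_stabilizer, mcl_simple.2] at h
  let f : ↥(st2 none (pt 0)) → ↥(MulAction.stabilizer ↥(pairStab fourFour) (pt105 0)) := fun σ =>
    ⟨⟨permTwo σ, permTwo_mem shapes.2.2.1 σ⟩, permTwo_base σ⟩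
  have hf : Function.Bijective f := by
    refine ⟨fun a b e => permTwo_injective (congrArg
      (fun z : ↥(MulAction.stabilizer ↥(pairStab fourFour) (pt105 0)) => ((z : ↥(pairStab fourFour)) : ↥Co0)) e),
      fun g => ?_⟩
    obtain ⟨σ, hσ⟩ := pair_fix_mono g.1.2 g.2
    exact ⟨σ, Subtype.ext (Subtype.ext hσ)⟩
  rw [← Nat.card_congr (Equiv.ofBijective f hf), st2_card (show (none : GolayPt) ≠ pt 0 by decide)] at h
  omega

theorem mem_range_of {a : ℕ} (ha : a ∈ pts) {y : ↥leechLattice} (hy : (y : GolayPt → ℤ) = toVec a) :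
    y ∈ Set.range pt105 := by
  obtain ⟨i, hi, rfl⟩ := List.getElem_of_mem ha
  refine ⟨⟨i, pts_facts.1 ▸ hi⟩, Subtype.ext ?_⟩
  rw [hy]
  show toVec (pts.getD i 0) = _
  rw [List.getD_eq_getElem _ _ hi]

theorem cent_range {g : ↥Co0} (hg : g ∈ cent) : g • pt105 0 ∈ Set.range pt105 := by
  obtain ⟨hgp, hgt⟩ := mem_cent.1 hg
  have hb := toBlock_ok
  simp only [Bool.and_eq_true] at hb
  have hk := pair_word hb.1.1.1 hb.1.1.2 hb.1.2
  have hkb : wCo toBlock • pt105 0 = blockVec := Subtype.ext (by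
    rw [wRun_spec hb.1.1.1 (L := xCode) rfl (by rw [pt105_norm]; norm_num), beq_iff_eq.1 hb.2]; rfl)
  have hgens : ∀ w ∈ RankOrb.mcGens, wCo w ∈ pairStab fourFour := fun w hw => by
    have h := List.all_eq_true.1 mcGens_fix w hw
    simp only [Bool.and_eq_true] at h
    exact pair_word h.1.1 h.1.2 h.2
  obtain ⟨a, ha, hae⟩ := orbit_listed mc_block_ok (pairStab fourFour) hgens
    (x := blockVec) rfl (by rw [blockVec_norm]; norm_num) _ orbit_card
    (fun k hk' => ⟨⟨k * wCo toBlock, mul_mem hk' hk⟩, by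
      show (k * wCo toBlock) • pt105 0 = _
      rw [mul_smul, hkb]⟩) (g • pt105 0) ⟨⟨g, hgp⟩, rfl⟩
  have hnorm : sqNorm ((g • pt105 0 : ↥leechLattice) : GolayPt → ℤ) = 32 :=
    (Same.sqNorm_eq ⟨g, rfl⟩).trans (pt105_norm 0)
  have hT : wCo wT • pt105 0 = pt105 0 :=
    wCo_fix (by decide +kernel) (L := xCode) rfl (by rw [pt105_norm]; norm_num) fixed_base
  have hfix : wCo wT • g • pt105 0 = g • pt105 0 := by
    rw [wT_eq] at hT ⊢
    rw [← mul_smul, ← hgt, mul_smul, hT]
  have h2 := wRun_spec (w := wT) (by decide +kernel) hae (by rw [hnorm]; norm_num)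
  rw [hfix, hae] at h2
  have h := List.all_eq_true.1 fixed_all a ha
  rw [Bool.or_eq_true, bne_iff_ne, List.contains_iff_mem] at h
  exact mem_range_of (h.resolve_left (not_not.2 (key_congr h2).symm)) hae

theorem gen_trans (i : Fin 105) : ∃ k ∈ genGroup, k • pt105 0 = pt105 i :=
  orbit_fills orbit_ok genGroup gen_mem (x := pt105 0) rfl (by rw [pt105_norm]; norm_num)
    (Set.range pt105) (by rw [Set.ncard_range_of_injective pt105_injective]; simp)
    (fun k hk => cent_range (genGroup_le hk)) _ ⟨i, rfl⟩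

theorem cent_range' {g : ↥Co0} (hg : g ∈ cent) (i : Fin 105) : g • pt105 i ∈ Set.range pt105 := by
  obtain ⟨k, hk, e⟩ := gen_trans i
  rw [← e, ← mul_smul]
  exact cent_range (mul_mem hg (genGroup_le hk))

theorem stab_mono {g : ↥Co0} (hg : g ∈ cent) (h : g • pt105 0 = pt105 0) :
    ∃ p ∈ monoList, g = wCo [.perm p] ∧ ∃ σ, permTwo σ = g ∧ permTwo σ⁻¹ ∈ genGroup := by
  obtain ⟨hgp, hgt⟩ := mem_cent.1 hg
  obtain ⟨σ, rfl⟩ := pair_fix_mono hgp h
  have hc : (σ⁻¹ : ↥(st2 none (pt 0))) * tPerm = tPerm * σ⁻¹ := by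
    have h1 : σ * tPerm = tPerm * σ := permTwo_injective (by rw [map_mul, map_mul]; exact hgt)
    exact (show Commute σ tPerm from h1).inv_left.eq
  obtain ⟨p, hp, hpe⟩ := (centIn_eq (σ⁻¹ : ↥(st2 none (pt 0)))).1 (mem_centIn.2
    ⟨gM22_st2.ge (σ⁻¹).2, congrArg Subtype.val hc⟩)
  refine ⟨p, hp, ?_, σ, rfl, ?_⟩
  · rw [wCo_perm (inStab_inM24 (mono_facts.2.2.1 p hp).1) σ⁻¹ hpe.symm, map_inv, inv_inv]
  · obtain ⟨τ, hτ, hτm⟩ := monoList_gen hp
    rwa [show σ⁻¹ = τ from Subtype.ext (hpe.symm.trans hτ.symm)]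

theorem cent_eq : cent = genGroup := by
  refine le_antisymm (fun g hg => ?_) genGroup_le
  obtain ⟨i, hi⟩ := cent_range hg
  obtain ⟨k, hk, hke⟩ := gen_trans i
  obtain ⟨p, -, -, σ, hσ, hm⟩ := stab_mono (mul_mem (inv_mem (genGroup_le hk)) hg)
    (by rw [mul_smul, ← hi, ← hke, inv_smul_smul])
  rw [map_inv, hσ, inv_mem_iff] at hm
  simpa using mul_mem hk hm

theorem card_cent : Nat.card cent = 40320 := by
  classical
  haveI : Finite ↥Co0 := Nat.finite_of_card_ne_zero (by rw [card_Co0]; norm_num)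
  have h := Subgroup.card_mul_index (MulAction.stabilizer ↥cent (pt105 0))
  have horb : MulAction.orbit ↥cent (pt105 0) = Set.range pt105 := by
    ext y
    constructor
    · rintro ⟨g, rfl⟩; exact cent_range g.2
    · rintro ⟨i, rfl⟩
      obtain ⟨k, hk, e⟩ := gen_trans i
      exact ⟨⟨k, genGroup_le hk⟩, e⟩
  rw [MulAction.index_stabilizer, horb, Set.ncard_range_of_injective pt105_injective, Nat.card_fin] at h
  have hmono : ∀ σ : ↥(od22.centIn (toPerm o22B)),
      permTwo ⟨σ.1, gM22_st2.le (mem_centIn.1 σ.2).1⟩ ∈ cent ∧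
      permTwo ⟨σ.1, gM22_st2.le (mem_centIn.1 σ.2).1⟩ • pt105 0 = pt105 0 := by
    intro σ
    refine ⟨mem_cent.2 ⟨permTwo_mem shapes.2.2.1 _, ?_⟩, permTwo_fix (a := 4) (b := -4) (c := 0) ?_ _⟩
    · rw [tCo, ← map_mul, ← map_mul]
      exact congrArg permTwo (Subtype.ext (mem_centIn.1 σ.2).2)
    · decide +kernel
  let f : ↥(od22.centIn (toPerm o22B)) → ↥(MulAction.stabilizer ↥cent (pt105 0)) := fun σ =>
    ⟨⟨_, (hmono σ).1⟩, (hmono σ).2⟩
  have hf : Function.Bijective f := by
    refine ⟨fun a b e => ?_, fun g => ?_⟩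
    · have := permTwo_injective (congrArg (fun z : ↥(MulAction.stabilizer ↥cent (pt105 0)) => ((z : ↥cent) : ↥Co0)) e)
      exact Subtype.ext (congrArg (fun z : ↥(st2 none (pt 0)) => (z : Equiv.Perm GolayPt)) this)
    · obtain ⟨p, hp, -, σ, hσ, -⟩ := stab_mono g.1.2 g.2
      have hσc : (σ : Equiv.Perm GolayPt) ∈ od22.centIn (toPerm o22B) := by
        refine mem_centIn.2 ⟨gM22_st2.ge σ.2, ?_⟩
        have h1 : σ * tPerm = tPerm * σ := permTwo_injective (by
          rw [map_mul, map_mul, hσ]; exact (mem_cent.1 g.1.2).2)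
        exact congrArg Subtype.val h1
      exact ⟨⟨σ, hσc⟩, Subtype.ext (Subtype.ext hσ)⟩
  rw [← Nat.card_congr (Equiv.ofBijective f hf), show Nat.card ↥(od22.centIn (toPerm o22B)) = 384 from
    od22_pre.class_facts.2.trans (by decide +kernel)] at h
  omega

end Cfsg.Agent.Lib.Leech.McCent
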