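import Cfsg.Agent.Lib.Leech.McCentData
import Cfsg.Agent.Lib.Leech.SubData
import Cfsg.Agent.Lib.Leech.RankData
import Cfsg.Agent.Lib.Fusion.MathieuCert
import Cfsg.Agent.Lib.Golay.OuterData
import Cfsg.Agent.Lib.Golay.Subgroups

/-! Kernel checks on the centralizer of an involution of the McLaughlin group. -/

set_option autoImplicit false
set_option maxRecDepth 100000

namespace Cfsg.Agent.Lib.Leech.McCent

open Cfsg Golay Cfsg.Agent.Lib.Fusion.Mathieu

/-- The mask of the two fixed coordinates. -/
def twoFix : ℕ := 1 <<< 23 ||| 1

/-- The word of the involution. -/
def wT : List Op := [.perm o22B]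

/-- The generators of the centralizer. -/
def cGens : List (List Op) := (twoGens ++ [threeElt]).map (fun p => [Op.perm p]) ++ [extra]

/-- The base point. -/
def xCode : ℕ := pts.getD 0 0

/-- The permutations in the centralizer. -/
def monoList : List ℕ :=
  [idCode, threeElt, comp threeElt threeElt].flatMap fun a => (span twoGens).map (comp a)

/-- A frame vector, coded. -/
def eCode (i : ℕ) : ℕ := mk fun j => if j == i then 40 else 32

/-- An entry of the table of sets. -/
def msk (a b : Fin 8) : ℕ := (pairMask.getD a []).getD b 0

/-- An entry of the table of images. -/
def imgP (j : ℕ) (i : Fin 105) : Fin 105 := Fin.ofNat 105 ((imgs.getD j []).getD i 0)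

/-- An entry of the table of images of the eight symbols. -/
def imgS (j : ℕ) (a : Fin 8) : Fin 8 := Fin.ofNat 8 ((imgsEight.getD j []).getD a 0)

/-- A value differs from all the fixed points selected by a mask pulled back along a table. -/
def offMask (m : ℕ) (u : List ℕ) (v : ℕ) : Bool :=
  u.zipIdx.all fun e => !m.testBit e.1 || (v != key (pts.getD e.2 0))

/-- Some set is not preserved. -/
def moves (u : List ℕ) (p : ℕ) : Bool :=
  pairMask.any fun row => row.any fun m => (List.range 105).any fun i =>
    m.testBit i && offMask m u (key (wRun [.perm p] (pts.getD i 0)))

theorem mono_ok : (pcOK twoGens && valid threeElt &&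
    monoList.all (fun p => inStab [] twoFix p && eqv (comp p o22B) (comp o22B p)) &&
    (monoList.length == 384) && distinctFrom monoList .leaf) = true := by decide +kernel

theorem root_ok : (inStab [] twoFix rootT && eqv (comp rootT rootT) o22B) = true := by decide +kernel

theorem orbit_ok : orbitOK cGens tree xCode 105 = true := by decide +kernel

theorem orbit_eq : (orbitVecs cGens tree xCode == pts) = true := by decide +kernel

theorem gens_ok : (cGens.all fun w => wOk w && (wRun w RankOrb.five == RankOrb.five) &&
    (wRun w RankOrb.fourFour == RankOrb.fourFour)) = true := by decide +kernel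

theorem comm_ok : (cGens.all fun w => wOk (w ++ wT) && wOk (wT ++ w) &&
    idx.all fun i => wRun (w ++ wT) (eCode i) == wRun (wT ++ w) (eCode i)) = true := by decide +kernel

theorem fixed_all : ((orbitVecs RankOrb.mcGens SubOrb.mcBlockTree SubOrb.mcBlock).all fun a =>
    (key (wRun wT a) != key a) || pts.contains a) = true := by decide +kernel

theorem fixed_base : (wRun wT xCode == xCode) = true := by decide +kernel

theorem imgs_ok : ((List.range cGens.length).all fun j =>
    pts.map (wRun (cGens.getD j [])) == (imgs.getD j []).map fun i => pts.getD i 0) = true := by
  decide +kernel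

theorem imgs_len : ((List.range cGens.length).all fun j => (imgs.getD j []).length == 105 &&
    (imgs.getD j []).all fun i => Nat.blt i 105) = true := by decide +kernel

theorem mask_perm : ((List.range cGens.length).all fun j => (List.finRange 8).all fun a =>
    (List.finRange 8).all fun b => (imgs.getD j []).zipIdx.all fun e =>
      (msk (imgS j a) (imgS j b)).testBit e.1 == (msk a b).testBit e.2) = true := by
  decide +kernel

theorem imgS_ok : ((List.range cGens.length).all fun j => (List.finRange 8).all fun a =>
    (List.finRange 8).all fun b => !(imgS j a == imgS j b) || (a == b)) = true := by decide +kernel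

theorem mask_inj : ((List.finRange 8).all fun a => (List.finRange 8).all fun b =>
    (List.finRange 8).all fun c => (List.finRange 8).all fun d =>
      (a == b) || !(msk a b == msk c d) || ((c == a && d == b) || (c == b && d == a))) = true := by
  decide +kernel

theorem mask_small : ((List.finRange 8).all fun a => (List.finRange 8).all fun b =>
    Nat.blt (msk a b) (2 ^ 105)) = true := by decide +kernel

theorem three_ok : ((List.finRange 105).all fun i => reps.any (fun e => e.1 == i.val) ||
    (List.finRange 8).any fun a => (List.finRange 8).any fun b =>
      (msk a b).testBit i != (msk a b).testBit 0) = true := by decide +kernel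

theorem reps_ok : (reps.all fun e => Nat.blt e.1 105 && wOk e.2 &&
    (wRun e.2 xCode == pts.getD e.1 0) && (wRun e.2 RankOrb.five == RankOrb.five) &&
    (wRun e.2 RankOrb.fourFour == RankOrb.fourFour)) = true := by decide +kernel

theorem repImgs_ok : ((List.range 3).all fun k =>
    pts.map (wRun (reps.getD k (0, [])).2) == (repImgs.getD k []).map fun i => pts.getD i 0) = true := by
  decide +kernel

theorem repImgs_len : ((List.range 3).all fun k => (repImgs.getD k []).length == 105 &&
    (repImgs.getD k []).all fun i => Nat.blt i 105) = true := by decide +kernel

theorem kernel_ok : ((List.range 3).all fun k => monoList.all fun p =>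
    ((reps.getD k (0, [])).2.isEmpty && (eqv p idCode || eqv p o22B)) || moves (repImgs.getD k []) p) = true := by
  decide +kernel

end Cfsg.Agent.Lib.Leech.McCent
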