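import Cfsg.Agent.Lib.Leech.McCent
import Cfsg.Agent.Lib.Leech.SporIso
import Cfsg.Prelude.Def_SporadicB

/-! The involutions of the McLaughlin group and their centralizers. -/

set_option autoImplicit false
set_option maxRecDepth 100000
set_option maxHeartbeats 1000000

namespace Cfsg.Agent.Lib.Leech.McCent

open Cfsg Golay Cfsg.Agent.Lib.Fusion.Mathieu
open scoped Pointwise

theorem reps_comm : (reps.all fun e => wOk (e.2 ++ wT) && wOk (wT ++ e.2) &&
    idx.all fun i => wRun (e.2 ++ wT) (eCode i) == wRun (wT ++ e.2) (eCode i)) = true := by decide +kernel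

/-- The action on the fixed points, as a map. -/
noncomputable def rhoFun (g : ↥cent) (i : Fin 105) : Fin 105 := (cent_range' g.2 i).choose

theorem rhoFun_spec (g : ↥cent) (i : Fin 105) : pt105 (rhoFun g i) = (g : ↥Co0) • pt105 i :=
  (cent_range' g.2 i).choose_spec

theorem rhoFun_mul (g h : ↥cent) (i : Fin 105) : rhoFun (g * h) i = rhoFun g (rhoFun h i) :=
  pt105_injective (by rw [rhoFun_spec, rhoFun_spec, rhoFun_spec, Subgroup.coe_mul, mul_smul])

theorem rhoFun_one (i : Fin 105) : rhoFun 1 i = i :=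
  pt105_injective (by rw [rhoFun_spec, OneMemClass.coe_one, one_smul])

/-- The action on the fixed points. -/
noncomputable def rho : ↥cent →* Equiv.Perm (Fin 105) where
  toFun g :=
    ⟨rhoFun g, rhoFun g⁻¹, fun i => by rw [← rhoFun_mul, inv_mul_cancel, rhoFun_one],
      fun i => by rw [← rhoFun_mul, mul_inv_cancel, rhoFun_one]⟩
  map_one' := Equiv.ext rhoFun_one
  map_mul' g h := Equiv.ext (rhoFun_mul g h)

theorem rho_spec (g : ↥cent) (i : Fin 105) : pt105 (rho g i) = (g : ↥Co0) • pt105 i := rhoFun_spec g i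

/-- A permutation of the 105 points follows one of the eight symbols. -/
def Compat (p : Equiv.Perm (Fin 105)) (σ : Equiv.Perm (Fin 8)) : Prop :=
  ∀ a b i, (msk (σ a) (σ b)).testBit (p i : Fin 105) = (msk a b).testBit (i : Fin 105)

/-- The permutations preserving the family. -/
def fam : Subgroup (Equiv.Perm (Fin 105)) where
  carrier := {p | ∃ σ, Compat p σ}
  one_mem' := ⟨1, fun _ _ _ => rfl⟩
  mul_mem' := by
    rintro p q ⟨σ, hσ⟩ ⟨τ, hτ⟩
    refine ⟨σ * τ, fun a b i => ?_⟩
    rw [Equiv.Perm.mul_apply, Equiv.Perm.mul_apply, Equiv.Perm.mul_apply, hσ, hτ]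
  inv_mem' := by
    rintro p ⟨σ, hσ⟩
    refine ⟨σ⁻¹, fun a b i => ?_⟩
    rw [← hσ (σ⁻¹ a) (σ⁻¹ b) (p⁻¹ i)]
    simp

theorem compat_unique {p : Equiv.Perm (Fin 105)} {σ τ : Equiv.Perm (Fin 8)} (hσ : Compat p σ)
    (hτ : Compat p τ) : σ = τ := by
  have heq : ∀ a b, msk (σ a) (σ b) = msk (τ a) (τ b) := by
    intro a b
    have hsm : ∀ x y : Fin 8, msk x y < 2 ^ 105 := fun x y => by
      have h := List.all_eq_true.1 (List.all_eq_true.1 mask_small x (List.mem_finRange x)) y
        (List.mem_finRange y)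
      rwa [Nat.blt_eq] at h
    apply Nat.eq_of_testBit_eq
    intro k
    by_cases hk : k < 105
    · obtain ⟨i, hi⟩ := p.surjective ⟨k, hk⟩
      have h1 := (hσ a b i).trans (hτ a b i).symm
      rwa [hi] at h1
    · rw [Nat.testBit_lt_two_pow ((hsm _ _).trans_le (Nat.pow_le_pow_right (by norm_num) (by omega))),
        Nat.testBit_lt_two_pow ((hsm _ _).trans_le (Nat.pow_le_pow_right (by norm_num) (by omega)))]
  have hinj : ∀ a b c d : Fin 8, a ≠ b → msk a b = msk c d → (c = a ∧ d = b) ∨ (c = b ∧ d = a) := by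
    intro a b c d hab h
    have h1 := List.all_eq_true.1 (List.all_eq_true.1 (List.all_eq_true.1 (List.all_eq_true.1 mask_inj a
      (List.mem_finRange a)) b (List.mem_finRange b)) c (List.mem_finRange c)) d (List.mem_finRange d)
    simp [hab, h] at h1
    exact h1
  have two : ∀ a : Fin 8, ∃ b c, a ≠ b ∧ a ≠ c ∧ b ≠ c := by decide
  refine Equiv.ext fun a => ?_
  obtain ⟨b, c, hab, hac, hbc⟩ := two a
  rcases hinj _ _ _ _ (fun e => hab (σ.injective e)) (heq a b) with h | h
  · exact h.1.symm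
  rcases hinj _ _ _ _ (fun e => hac (σ.injective e)) (heq a c) with h' | h'
  · exact h'.1.symm
  · exact absurd (σ.injective (h.1.symm.trans h'.1)) hbc

theorem gen_fam {w : List Op} (hw : w ∈ cGens) :
    rho ⟨wCo w, genGroup_le (gen_mem w hw)⟩ ∈ fam := by
  obtain ⟨j, hj, rfl⟩ := List.getElem_of_mem hw
  have hjr : j ∈ List.range cGens.length := List.mem_range.2 hj
  have hw1 := List.all_eq_true.1 gens_ok _ hw
  simp only [Bool.and_eq_true] at hw1
  have hlen := List.all_eq_true.1 imgs_len j hjr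
  simp only [Bool.and_eq_true, beq_iff_eq, List.all_eq_true, Nat.blt_eq] at hlen
  have himg := beq_iff_eq.1 (List.all_eq_true.1 imgs_ok j hjr)
  rw [List.getD_eq_getElem _ _ hj] at himg
  have hP : ∀ i, rho ⟨wCo cGens[j], genGroup_le (gen_mem _ hw)⟩ i = imgP j i := by
    intro i
    apply pt105_injective
    refine (rho_spec _ i).trans (Subtype.ext ?_)
    rw [wRun_spec hw1.1.1 (L := pts.getD i 0) rfl (by rw [pt105_norm]; norm_num)]
    show toVec _ = toVec (pts.getD (imgP j i) 0)
    congr 1
    have hil : (i : ℕ) < pts.length := pts_facts.1.symm ▸ i.2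
    have hil' : (i : ℕ) < (imgs.getD j []).length := hlen.1.symm ▸ i.2
    have h := List.getElem_of_eq himg (i := (i : ℕ)) (by rw [List.length_map]; exact hil)
    rw [List.getElem_map, List.getElem_map] at h
    rw [List.getD_eq_getElem _ _ hil, h]
    congr 1
    simp only [imgP, List.getD_eq_getElem _ _ hil', Fin.val_ofNat]
    rw [Nat.mod_eq_of_lt (hlen.2 _ (List.getElem_mem hil'))]
  have hbij : Function.Bijective (imgS j) := by
    refine Finite.injective_iff_bijective.1 fun a b e => ?_
    have h := List.all_eq_true.1 (List.all_eq_true.1 (List.all_eq_true.1 imgS_ok j hjr) a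
      (List.mem_finRange a)) b (List.mem_finRange b)
    simpa [e] using h
  refine ⟨Equiv.ofBijective _ hbij, fun a b i => ?_⟩
  rw [hP i]
  have hi : (i : ℕ) < (imgs.getD j []).length := hlen.1.symm ▸ i.2
  have h := beq_iff_eq.1 (List.all_eq_true.1 (List.all_eq_true.1 (List.all_eq_true.1 (List.all_eq_true.1
    mask_perm j hjr) a (List.mem_finRange a)) b (List.mem_finRange b)) ((imgs.getD j [])[(i : ℕ)], (i : ℕ))
    (List.mem_zipIdx_iff_getElem?.2 (List.getElem?_eq_getElem hi)))
  simp only [imgP, List.getD_eq_getElem _ _ hi, Fin.val_ofNat]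
  rw [Nat.mod_eq_of_lt (hlen.2 _ (List.getElem_mem hi))]
  exact h

theorem rho_fam (g : ↥cent) : rho g ∈ fam := by
  have hle : genGroup ≤ (fam.comap rho).map cent.subtype := by
    refine (Subgroup.closure_le _).2 ?_
    rintro _ ⟨w, hw, rfl⟩
    exact ⟨_, gen_fam hw, rfl⟩
  obtain ⟨g', hg', e⟩ := hle (cent_eq.le g.2)
  rw [← Subtype.ext (a1 := g') (a2 := g) e]
  exact hg'

/-- The action on eight symbols. -/
noncomputable def phi : ↥cent →* Equiv.Perm (Fin 8) :=
  MonoidHom.mk' (fun g => (rho_fam g).choose) fun g h => by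
    refine compat_unique (rho_fam (g * h)).choose_spec ?_
    intro a b i
    rw [map_mul, Equiv.Perm.mul_apply, Equiv.Perm.mul_apply, Equiv.Perm.mul_apply,
      (rho_fam g).choose_spec, (rho_fam h).choose_spec]

theorem phi_spec (g : ↥cent) : Compat (rho g) (phi g) := (rho_fam g).choose_spec

/-- The involution in the centralizer. -/
noncomputable def tCent : ↥cent := ⟨tCo, tCo_mem⟩

theorem tCo_ne : tCo ≠ 1 := fun e => by
  have h : tPerm = 1 := permTwo_injective (e.trans (map_one _).symm)
  have := tPerm_order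
  rw [h, orderOf_one] at this
  omega

theorem tCent_fix (i : Fin 105) : tCo • pt105 i = pt105 i := by
  obtain ⟨k, hk, e⟩ := gen_trans i
  have h0 : wCo wT • pt105 0 = pt105 0 :=
    wCo_fix (by decide +kernel) (L := xCode) rfl (by rw [pt105_norm]; norm_num) fixed_base
  rw [wT_eq] at h0
  rw [← e, ← mul_smul, ← (mem_cent.1 (genGroup_le hk)).2, mul_smul, h0]

theorem phi_eq_one (g : ↥cent) : phi g = 1 ↔ g = 1 ∨ g = tCent := by
  constructor
  · intro hg
    have hinv : ∀ a b i, (msk a b).testBit (rho g i : Fin 105) = (msk a b).testBit (i : Fin 105) := by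
      intro a b i
      have := phi_spec g a b i
      rwa [hg] at this
    have hthree := List.all_eq_true.1 three_ok (rho g 0) (List.mem_finRange _)
    rw [Bool.or_eq_true] at hthree
    rcases hthree with h | h
    swap
    · exfalso
      obtain ⟨a, -, h⟩ := List.any_eq_true.1 h
      obtain ⟨b, -, h⟩ := List.any_eq_true.1 h
      rw [bne_iff_ne] at h
      exact h (hinv a b 0)
    obtain ⟨e, he, hei⟩ := List.any_eq_true.1 h
    rw [beq_iff_eq] at hei
    obtain ⟨k, hk3, rfl⟩ := List.getElem_of_mem he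
    have hr := List.all_eq_true.1 reps_ok _ he
    simp only [Bool.and_eq_true, Nat.blt_eq, beq_iff_eq] at hr
    obtain ⟨⟨⟨⟨-, hok⟩, hrun⟩, h5⟩, h4⟩ := hr
    have hu : wCo reps[k].2 ∈ cent :=
      word_mem hok (beq_iff_eq.2 h5) (beq_iff_eq.2 h4) (List.all_eq_true.1 reps_comm _ he)
    have hu0 : wCo reps[k].2 • pt105 0 = pt105 (rho g 0) := Subtype.ext (by
      rw [wRun_spec hok (L := xCode) rfl (by rw [pt105_norm]; norm_num), hrun, hei]; rfl)
    obtain ⟨p, hp, hpe, -⟩ := stab_mono (mul_mem (inv_mem hu) g.2)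
      (by rw [mul_smul, ← rho_spec, ← hu0, inv_smul_smul])
    have hge : (g : ↥Co0) = wCo (reps[k].2 ++ [.perm p]) := by
      rw [wCo_append, ← hpe, mul_inv_cancel_left]
    obtain ⟨hpin, hpv, -⟩ := mono_facts.2.2.1 p hp
    have hk3' : k ∈ List.range 3 := List.mem_range.2 hk3
    have hk := List.all_eq_true.1 (List.all_eq_true.1 kernel_ok k hk3') p hp
    rw [List.getD_eq_getElem _ _ hk3] at hk
    rw [Bool.or_eq_true] at hk
    rcases hk with hk | hk
    · simp only [Bool.and_eq_true, Bool.or_eq_true, List.isEmpty_iff] at hk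
      rw [hk.1, List.nil_append, wCo_perm (inStab_inM24 hpin) ⟨toPerm p, inStab_st2 hpin⟩ rfl] at hge
      rcases hk.2 with h1 | h1
      · refine Or.inl (Subtype.ext ?_)
        have h2 : toPerm p = 1 := toPerm_id ▸ (eqv_iff hpv valid_idCode).1 h1
        have h3 : (⟨toPerm p, inStab_st2 hpin⟩ : ↥(st2 none (pt 0))) = 1 := Subtype.ext h2
        rw [hge, h3, map_one, inv_one]
        rfl
      · refine Or.inr (Subtype.ext ?_)
        have h3 : (⟨toPerm p, inStab_st2 hpin⟩ : ↥(st2 none (pt 0))) = tPerm :=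
          Subtype.ext ((eqv_iff hpv (by decide +kernel)).1 h1)
        rw [hge, h3]
        exact inv_eq_of_mul_eq_one_left tCo_sq
    · exfalso
      simp only [moves, List.any_eq_true, Bool.and_eq_true] at hk
      obtain ⟨row, hrow, m, hm, i, hi, hbit, hall⟩ := hk
      obtain ⟨a, ha, rfl⟩ := List.getElem_of_mem hrow
      obtain ⟨b, hb, rfl⟩ := List.getElem_of_mem hm
      have hpl : pairMask.length = 8 ∧ ∀ r ∈ pairMask, r.length = 8 := by decide +kernel
      have hmsk : msk ⟨a, hpl.1 ▸ ha⟩ ⟨b, hpl.2 _ (List.getElem_mem ha) ▸ hb⟩ = pairMask[a][b] := by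
        simp [msk, List.getD_eq_getElem?_getD, ha, hb]
      have hi' : i < 105 := List.mem_range.1 hi
      have hpok : wOk [Op.perm p] = true := by
        simp only [wOk, List.all_cons, List.all_nil, Bool.and_true]
        exact inStab_inM24 hpin
      let c : ↥cent := ⟨wCo [.perm p], hpe ▸ mul_mem (inv_mem hu) g.2⟩
      let l : Fin 105 := rho c ⟨i, hi'⟩
      have hU := List.all_eq_true.1 repImgs_len k hk3'
      simp only [Bool.and_eq_true, beq_iff_eq, List.all_eq_true, Nat.blt_eq] at hU
      have hl : (l : ℕ) < (repImgs.getD k []).length := hU.1.symm ▸ l.2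
      have hlt := hU.2 _ (List.getElem_mem hl)
      have himg := beq_iff_eq.1 (List.all_eq_true.1 repImgs_ok k hk3')
      rw [List.getD_eq_getElem _ _ hk3] at himg
      have hl' : (l : ℕ) < pts.length := pts_facts.1.symm ▸ l.2
      have h5' := List.getElem_of_eq himg (i := (l : ℕ)) (by rw [List.length_map]; exact hl')
      rw [List.getElem_map, List.getElem_map] at h5'
      have hgi : rho g ⟨i, hi'⟩ = ⟨(repImgs.getD k [])[(l : ℕ)], hlt⟩ := by
        apply pt105_injective
        rw [rho_spec, hge, wCo_append, mul_smul,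
          show wCo [Op.perm p] • pt105 ⟨i, hi'⟩ = pt105 l from (rho_spec c _).symm]
        refine Subtype.ext ?_
        rw [wRun_spec hok (L := pts.getD l 0) rfl (by rw [pt105_norm]; norm_num),
          List.getD_eq_getElem _ _ hl', h5']
        rfl
      have h1 := hinv ⟨a, hpl.1 ▸ ha⟩ ⟨b, hpl.2 _ (List.getElem_mem ha) ▸ hb⟩ ⟨i, hi'⟩
      rw [hmsk, hgi] at h1
      rw [offMask] at hall
      have h2 := List.all_eq_true.1 hall ((repImgs.getD k [])[(l : ℕ)], (l : ℕ))
        (List.mem_zipIdx_iff_getElem?.2 (List.getElem?_eq_getElem hl))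
      rw [show Nat.testBit pairMask[a][b] ((repImgs.getD k [])[(l : ℕ)]) = true from h1.trans hbit] at h2
      simp only [Bool.not_true, Bool.false_or, bne_iff_ne] at h2
      apply h2
      apply key_congr
      rw [← wRun_spec hpok (L := pts.getD i 0) (x := pt105 ⟨i, hi'⟩) rfl (by rw [pt105_norm]; norm_num),
        show wCo [Op.perm p] • pt105 ⟨i, hi'⟩ = pt105 l from (rho_spec c _).symm]
      rfl
  · rintro (rfl | rfl)
    · exact map_one _
    · refine compat_unique (phi_spec tCent) ?_
      intro a b i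
      have h : rho tCent i = i := pt105_injective ((rho_spec tCent i).trans (tCent_fix i))
      rw [h]
      rfl

theorem cent_range_alt : phi.range = alternatingGroup (Fin 8) := by
  classical
  haveI : Finite ↥Co0 := Nat.finite_of_card_ne_zero (by rw [card_Co0]; norm_num)
  have hker : Nat.card phi.ker = 2 := by
    have : (phi.ker : Set ↥cent) = {1, tCent} := by ext g; simp [MonoidHom.mem_ker, phi_eq_one]
    show (phi.ker : Set ↥cent).ncard = 2
    rw [this, Set.ncard_pair]
    exact fun e => tCo_ne (congrArg Subtype.val e).symm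
  have h1 := Subgroup.card_mul_index phi.ker
  rw [Subgroup.index_ker, hker, card_cent] at h1
  apply Equiv.Perm.eq_alternatingGroup_of_index_eq_two
  have h2 := Subgroup.card_mul_index phi.range
  rw [Nat.card_perm, Nat.card_fin, show Nat.card phi.range = 20160 by omega,
    show Nat.factorial 8 = 20160 * 2 by rfl] at h2
  omega

/-- The map onto the alternating group. -/
noncomputable def phiAlt : ↥cent →* ↥(alternatingGroup (Fin 8)) :=
  phi.codRestrict _ fun g => cent_range_alt ▸ ⟨g, rfl⟩

theorem phiAlt_surjective : Function.Surjective phiAlt := by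
  rintro ⟨σ, hσ⟩
  rw [← cent_range_alt] at hσ
  obtain ⟨g, hg⟩ := hσ
  exact ⟨g, Subtype.ext hg⟩

theorem phiAlt_eq_one (g : ↥cent) : phiAlt g = 1 ↔ g = 1 ∨ g = tCent := by
  rw [← phi_eq_one]
  exact ⟨fun h => congrArg Subtype.val h, fun h => Subtype.ext h⟩

/-- A square root of the involution in the centralizer. -/
theorem exists_root : ∃ r : ↥cent, r * r = tCent := by
  obtain ⟨hin, hsq⟩ := root_facts
  let σ : ↥(st2 none (pt 0)) := ⟨toPerm rootT, inStab_st2 hin⟩
  have hs : σ * σ = tPerm := Subtype.ext hsq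
  refine ⟨⟨permTwo σ, mem_cent.2 ⟨permTwo_mem shapes.2.2.1 _, ?_⟩⟩, Subtype.ext ?_⟩
  · rw [tCo, ← hs, map_mul, mul_assoc]
  · show permTwo σ * permTwo σ = tCo
    rw [← map_mul, hs]; rfl

theorem nonsplit_of {H K : Type*} [Group H] [Group K] (f : H →* K) (hf : Function.Surjective f) (z : H)
    (hK : Subgroup.center K = ⊥) (hker : ∀ h, f h = 1 ↔ h = 1 ∨ h = z) (hz : z ≠ 1)
    (hroot : ∃ r, r * r = z) : IsNonsplitDoubleCover H K := by
  have hconj : ∀ h, h * z * h⁻¹ = z := by
    intro h
    rcases (hker (h * z * h⁻¹)).1 (by simp [(hker z).2 (Or.inr rfl)]) with e | e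
    · exact absurd (conj_eq_one_iff.1 e) hz
    · exact e
  have hcen : Subgroup.center H = f.ker := by
    ext h
    rw [MonoidHom.mem_ker]
    constructor
    · intro hh
      have h1 : f h ∈ Subgroup.center K := Subgroup.mem_center_iff.2 fun k => by
        obtain ⟨x, rfl⟩ := hf k
        rw [← map_mul, ← map_mul, Subgroup.mem_center_iff.1 hh x]
      rwa [hK, Subgroup.mem_bot] at h1
    · intro hh
      rcases (hker h).1 hh with rfl | rfl
      · exact Subgroup.one_mem _
      · exact Subgroup.mem_center_iff.2 fun x => mul_inv_eq_iff_eq_mul.1 (hconj x)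
  have hcard : Nat.card (Subgroup.center H) = 2 := by
    rw [hcen]
    have : (f.ker : Set H) = {1, z} := by ext g; simp [MonoidHom.mem_ker, hker]
    show (f.ker : Set H).ncard = 2
    rw [this, Set.ncard_pair (Ne.symm hz)]
  refine ⟨hcard, ⟨(QuotientGroup.quotientMulEquivOfEq hcen).trans (QuotientGroup.quotientKerEquivOfSurjective f hf)⟩,
    fun L hL => ?_⟩
  obtain ⟨r, hr⟩ := hroot
  have hidx : L.index = 2 := hL.index_eq_card.trans hcard
  have hzL : z ∈ L := by rw [← hr, ← pow_two]; exact Subgroup.sq_mem_of_index_two hidx r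
  exact hz (Subgroup.disjoint_def.1 hL.disjoint (hcen.ge ((hker z).2 (Or.inr rfl))) hzL)

/-- The involution in the pair stabilizer. -/
noncomputable def tPair : ↥(pairStab fourFour) := ⟨tCo, permTwo_mem shapes.2.2.1 _⟩

theorem tPair_order : orderOf tPair = 2 := by
  rw [← Subgroup.orderOf_coe]
  exact (orderOf_injective permTwo permTwo_injective tPerm).trans tPerm_order

theorem conj_tPair (x : ↥(pairStab fourFour)) (hx : orderOf x = 2) : IsConj x tPair := by
  classical
  haveI : Finite ↥Co0 := Nat.finite_of_card_ne_zero (by rw [card_Co0]; norm_num)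
  haveI : Fact (Nat.Prime 2) := ⟨Nat.prime_two⟩
  obtain ⟨hpc, -, -, -, -⟩ := mono_facts
  let f : ↥(st2 none (pt 0)) →* ↥(pairStab fourFour) := permTwo.codRestrict _ (permTwo_mem shapes.2.2.1)
  have hf : Function.Injective f := fun _ _ e => permTwo_injective (congrArg Subtype.val e)
  have hle : grp twoGens ≤ st2 none (pt 0) := by
    refine (Subgroup.closure_le _).2 ?_
    rintro _ ⟨a, ha, rfl⟩
    exact inStab_st2 (List.all_eq_true.1 gens_inStab a (List.mem_append_left _ ha))
  let P : Subgroup ↥(pairStab fourFour) := ((grp twoGens).subgroupOf (st2 none (pt 0))).map f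
  have hP : Nat.card P = 2 ^ twoGens.length := by
    rw [Nat.card_congr (((grp twoGens).subgroupOf (st2 none (pt 0))).equivMapOfInjective f hf).symm.toEquiv,
      Nat.card_congr (Subgroup.subgroupOfEquivOfLe hle).toEquiv, (grp_spec twoGens hpc).2]
  have hidx : ¬ 2 ∣ P.index := by
    have h1 := Subgroup.card_mul_index P
    rw [hP, mcl_simple.2, show twoGens.length = 7 from rfl] at h1
    omega
  obtain ⟨Q, hQ⟩ := ((IsPGroup.of_card (n := 1)
    (by rw [Nat.card_zpowers, hx, pow_one]) : IsPGroup 2 (Subgroup.zpowers x))).exists_le_sylow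
  obtain ⟨g, hg⟩ := MulAction.exists_smul_eq ↥(pairStab fourFour) Q ((IsPGroup.of_card hP).toSylow hidx)
  have hgx : g * x * g⁻¹ ∈ P := by
    have h : MulAut.conj g • x ∈ ((g • Q : Sylow 2 ↥(pairStab fourFour)) : Subgroup _) := by
      rw [Sylow.coe_subgroup_smul]
      exact Subgroup.smul_mem_pointwise_smul _ _ _ (hQ (Subgroup.mem_zpowers x))
    rw [hg] at h
    exact h
  obtain ⟨σ, -, hσe⟩ := hgx
  have hσo : orderOf σ = 2 := by
    rw [← orderOf_injective f hf, hσe, ← hx]
    exact (MulEquiv.orderOf_eq (MulAut.conj g) x)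
  obtain ⟨r, hr, c, hc, he⟩ := sylCheck_spec syl22_check (by rw [gM22_card]; decide +kernel)
    (by rw [gM22_card]; decide +kernel) (g := (σ : Equiv.Perm GolayPt)) (gM22_st2.ge σ.2)
    (by rw [Subgroup.orderOf_coe]; exact hσo)
  obtain rfl := List.mem_singleton.1 hr
  have he' : (⟨c, gM22_st2.le hc⟩ : ↥(st2 none (pt 0))) * σ * ⟨c, gM22_st2.le hc⟩⁻¹ = tPerm :=
    Subtype.ext he
  refine isConj_iff.2 ⟨f ⟨c, gM22_st2.le hc⟩ * g, ?_⟩
  have h := congrArg f he'
  rw [map_mul, map_mul, map_inv, hσe] at h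
  rw [show tPair = f tPerm from Subtype.ext rfl, ← h]
  group

theorem mcl_involutions :
    (∀ x y : ↥Spor.McL, orderOf x = 2 → orderOf y = 2 → IsConj x y) ∧
      ∃ t : ↥Spor.McL, orderOf t = 2 ∧
        IsNonsplitDoubleCover ↥(Subgroup.centralizer ({t} : Set ↥Spor.McL)) ↥(alternatingGroup (Fin 8)) := by
  have hconj : ∀ x : ↥Spor.McL, orderOf x = 2 → IsConj x (mclEquiv tPair) := fun x hx => by
    have h := conj_tPair (mclEquiv.symm x) (by rw [MulEquiv.orderOf_eq]; exact hx)
    have h' := mclEquiv.toMonoidHom.map_isConj h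
    rwa [MulEquiv.coe_toMonoidHom, MulEquiv.apply_symm_apply] at h'
  refine ⟨fun x y hx hy => (hconj x hx).trans (hconj y hy).symm, mclEquiv tPair,
    (MulEquiv.orderOf_eq _ _).trans tPair_order, ?_⟩
  let e : ↥(Subgroup.centralizer ({mclEquiv tPair} : Set ↥Spor.McL)) →* ↥cent :=
    MonoidHom.mk' (fun h => ⟨(mclEquiv.symm (h : ↥Spor.McL) : ↥(pairStab fourFour)),
      mem_cent.2 ⟨(mclEquiv.symm (h : ↥Spor.McL)).2, by
        have h1 := congrArg mclEquiv.symm (Subgroup.mem_centralizer_singleton_iff.1 h.2)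
        rw [map_mul, map_mul, MulEquiv.symm_apply_apply] at h1
        exact congrArg Subtype.val h1⟩⟩) fun a b => Subtype.ext (by simp)
  have einj : Function.Injective e := fun a b h => Subtype.ext
    (mclEquiv.symm.injective (Subtype.ext (congrArg (fun z : ↥cent => (z : ↥Co0)) h)))
  have esurj : Function.Surjective e := fun g => by
    obtain ⟨hgp, hgt⟩ := mem_cent.1 g.2
    refine ⟨⟨mclEquiv ⟨g, hgp⟩, Subgroup.mem_centralizer_singleton_iff.2 ?_⟩, Subtype.ext ?_⟩
    · rw [← map_mul, ← map_mul]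
      exact congrArg mclEquiv (Subtype.ext hgt)
    · show ((mclEquiv.symm (mclEquiv _) : ↥(pairStab fourFour)) : ↥Co0) = _
      rw [MulEquiv.symm_apply_apply]
  let E := MulEquiv.ofBijective e ⟨einj, esurj⟩
  obtain ⟨r, hr⟩ := exists_root
  refine nonsplit_of (phiAlt.comp E.toMonoidHom) (phiAlt_surjective.comp E.surjective) (E.symm tCent)
    (alternatingGroup.center_eq_bot (by simp)) (fun h => ?_) ?_ ⟨E.symm r, by rw [← map_mul, hr]⟩
  · show phiAlt (E h) = 1 ↔ _
    rw [phiAlt_eq_one, MulEquiv.map_eq_one_iff, E.eq_symm_apply]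
  · rw [Ne, MulEquiv.map_eq_one_iff]
    exact fun e => tCo_ne (congrArg Subtype.val e)

end Cfsg.Agent.Lib.Leech.McCent
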